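import Mathlib

/-!
# S5917 (`L₃(4)` in `E₈(2)`), part I: definitions of the module side (helper691)

`F` a field with 4 elements, `G3 F = SL₃(F)`; all modules are modules over `ZMod 2`.
-/

set_option autoImplicit false

namespace Cfsg.Agent.H691.L34

open Matrix

abbrev G3 (F : Type) [Field F] : Type := SpecialLinearGroup (Fin 3) F

abbrev M3 (F : Type) : Type := Matrix (Fin 3) (Fin 3) F

section
variable {F : Type} [Field F]

/-- the conjugate transpose over the field with four elements -/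
def ct (X : M3 F) : M3 F := (X.map fun a => a ^ 2).transpose

/-- hermitian matrices -/
def HF (X : M3 F) : Prop := ct X = X

/-- the action `X ↦ g X g*` -/
def hact (g : G3 F) (X : M3 F) : M3 F := (g : M3 F) * X * ct (g : M3 F)

/-- inverse transpose -/
def it : G3 F →* G3 F where
  toFun g := ⟨(g⁻¹ : G3 F).1.transpose, by rw [det_transpose]; exact (g⁻¹ : G3 F).2⟩
  map_one' := by
    apply Subtype.ext
    show ((1 : G3 F)⁻¹ : G3 F).1.transpose = _
    rw [inv_one]
    exact Matrix.transpose_one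
  map_mul' a b := by
    apply Subtype.ext
    show ((a * b)⁻¹ : G3 F).1.transpose = ((a⁻¹ : G3 F).1.transpose) * ((b⁻¹ : G3 F).1.transpose)
    rw [_root_.mul_inv_rev]
    exact Matrix.transpose_mul _ _

/-- the two types -/
def tw (b : Bool) : G3 F →* G3 F := if b then it else MonoidHom.id _

end

section rep
variable {F : Type} [Field F] {V : Type} [AddCommGroup V] [Module (ZMod 2) V]

/-- invariant subspaces -/
def Inv (ρ : Representation (ZMod 2) (G3 F) V) (W : Submodule (ZMod 2) V) : Prop := ∀ g, ∀ w ∈ W, ρ g w ∈ W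

/-- `W` is a simple submodule -/
def Simp (ρ : Representation (ZMod 2) (G3 F) V) (W : Submodule (ZMod 2) V) : Prop :=
  Inv ρ W ∧ W ≠ ⊥ ∧ ∀ X : Submodule (ZMod 2) V, Inv ρ X → X ≤ W → X = ⊥ ∨ X = W

/-- fixed vectors of `g` in `W` -/
def fx (ρ : Representation (ZMod 2) (G3 F) V) (g : G3 F) (W : Submodule (ZMod 2) V) : Submodule (ZMod 2) V :=
  W ⊓ LinearMap.ker (ρ g - LinearMap.id)

/-- the common fixed vectors -/
def fixAll (ρ : Representation (ZMod 2) (G3 F) V) : Submodule (ZMod 2) V where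
  carrier := {v | ∀ g, ρ g v = v}
  add_mem' := fun ha hb g => by rw [map_add, ha g, hb g]
  zero_mem' := fun g => map_zero _
  smul_mem' := fun c x hx g => by rw [map_smul, hx g]

/-- the dimensions of the fixed spaces of the elements of order 3 (non-central), 5, 7 on `W` -/
def Dims (ρ : Representation (ZMod 2) (G3 F) V) (W : Submodule (ZMod 2) V) (n n3 n5 n7 : ℕ) : Prop :=
  Module.finrank (ZMod 2) W = n ∧
  (∀ g : G3 F, orderOf g = 3 → g ∉ Subgroup.center (G3 F) → Module.finrank (ZMod 2) (fx ρ g W) = n3) ∧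
  (∀ g : G3 F, orderOf g = 5 → Module.finrank (ZMod 2) (fx ρ g W) = n5) ∧
  ∀ g : G3 F, orderOf g = 7 → Module.finrank (ZMod 2) (fx ρ g W) = n7

/-- `W` is the module of hermitian matrices (`b = false`) or its dual (`b = true`) -/
def IsNine (ρ : Representation (ZMod 2) (G3 F) V) (b : Bool) (W : Submodule (ZMod 2) V) : Prop :=
  ∃ φ : M3 F → V, (∀ X Y, HF X → HF Y → φ (X + Y) = φ X + φ Y) ∧ (∀ X, HF X → φ X = 0 → X = 0) ∧
    (∀ v, v ∈ W ↔ ∃ X, HF X ∧ φ X = v) ∧ ∀ (g : G3 F) X, HF X → ρ g (φ X) = φ (hact (tw b g) X)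

/-- the upper unitriangular subgroup -/
def UU (F : Type) [Field F] : Subgroup (G3 F) where
  carrier := {g | (∀ i, g.1 i i = 1) ∧ g.1 1 0 = 0 ∧ g.1 2 0 = 0 ∧ g.1 2 1 = 0}
  one_mem' := by
    refine ⟨fun i => ?_, ?_, ?_, ?_⟩ <;> simp [Matrix.one_apply]
  mul_mem' := by
    rintro a b ⟨ha, h1, h2, h3⟩ ⟨hb, k1, k2, k3⟩
    have e0 := ha 0
    have e1 := ha 1
    have e2 := ha 2
    have f0 := hb 0
    have f1 := hb 1
    have f2 := hb 2
    have hm : ∀ i j, (a * b).1 i j = a.1 i 0 * b.1 0 j + a.1 i 1 * b.1 1 j + a.1 i 2 * b.1 2 j := fun i j => by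
      show (a.1 * b.1) i j = _
      rw [Matrix.mul_apply, Fin.sum_univ_three]
    refine ⟨fun i => ?_, ?_, ?_, ?_⟩
    · fin_cases i <;> simp [hm, *]
    · simp [hm, *]
    · simp [hm, *]
    · simp [hm, *]
  inv_mem' := by
    rintro a ⟨ha, h1, h2, h3⟩
    have e0 := ha 0
    have e1 := ha 1
    have e2 := ha 2
    have hi : ∀ i j, (a⁻¹ : G3 F).1 i j = (a.1).adjugate i j := fun i j => rfl
    refine ⟨fun i => ?_, ?_, ?_, ?_⟩
    · fin_cases i <;> simp [hi, Matrix.adjugate_fin_three, *]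
    · simp [hi, Matrix.adjugate_fin_three, *]
    · simp [hi, Matrix.adjugate_fin_three, *]
    · simp [hi, Matrix.adjugate_fin_three, *]

/-- the operator `U⁺` -/
noncomputable def Up [Fintype F] (ρ : Representation (ZMod 2) (G3 F) V) (v : V) : V := ∑ᶠ u : UU F, ρ (u : G3 F) v

/-- `W` is a Steinberg module: simple of dimension 64 and free over `U` -/
def Is64 [Fintype F] (ρ : Representation (ZMod 2) (G3 F) V) (W : Submodule (ZMod 2) V) : Prop :=
  Dims ρ W 64 22 12 10 ∧ ∃ w ∈ W, Up ρ w ≠ 0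

/-- `W` is of type 16 (only the dimensions are used) -/
def Is16 (ρ : Representation (ZMod 2) (G3 F) V) (W : Submodule (ZMod 2) V) : Prop := Dims ρ W 16 4 4 4

/-- the centre acts trivially -/
def CT (ρ : Representation (ZMod 2) (G3 F) V) : Prop := ∀ c ∈ Subgroup.center (G3 F), ∀ v, ρ c v = v

end rep

end Cfsg.Agent.H691.L34
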